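import Cfsg.Agent.H892.EP.Good
import Cfsg.Agent.H53.HC.RgdLevi
import Cfsg.Agent.H622.Levi.Cusp

/-!
# `Good` for Levi subgroups of type `A` of root group data (S4929, helper486)

For any root group datum `(T, n, X)` of a finite group:

* `good_MJ_co` : from coordinates `φ : SL_{m+1}(F) → Y` of the chain `k` (`H622.Levi.Co`);
* `good_MJ_chain` : `J = range k` a chain of `m ≥ 2` nodes, `|X (sr (k i))| = |F|`, `p ∤ gcd (m + 1, |F| - 1)`:
  `Good p r (SL_{m+1}(F)) → Good p r (M_J)`;
* `good_MJ_node` : `J = {i}`, `i` simply joined to some `j`, `|X (sr i)| = |F|`, `p ∤ gcd (2, |F| - 1)`.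
-/

set_option autoImplicit false
set_option linter.unusedSectionVars false

namespace Cfsg.Agent.H486.EP

open Cfsg Cfsg.Agent.H892.EP
open CoxeterSystem Cfsg.Agent.ChevalleyStructure.CoxeterGeom Cfsg.Agent.Tits.Roots Cfsg.Agent.Tits.Core
  Cfsg.Agent.Nodes.Reps Cfsg.Agent.Nodes.BNOf Cfsg.Agent.Nodes.StabComb Cfsg.Agent.H622.Levi
open Cfsg.Agent.LieRecognition.BNCox (cA)
open Matrix

universe u

/-- the centre of `SL_d(F)` -/
theorem card_center_dvd {d : ℕ} (hd : 0 < d) (F : Type*) [Field F] [Fintype F] :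
    Nat.card (Subgroup.center (SpecialLinearGroup (Fin d) F)) ∣ Nat.gcd d (Fintype.card F - 1) := by
  classical
  have h0 : max (Fintype.card (Fin d)) 1 = d := by rw [Fintype.card_fin]; omega
  have e := SpecialLinearGroup.center_equiv_rootsOfUnity (n := Fin d) (R := F)
  rw [h0] at e
  rw [Nat.card_congr e.toEquiv]
  have : NeZero d := ⟨hd.ne'⟩
  refine Nat.dvd_gcd ?_ ?_
  · rw [← IsCyclic.exponent_eq_card (α := rootsOfUnity d F)]
    refine Monoid.exponent_dvd_of_forall_pow_eq_one fun x => Subtype.ext ?_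
    exact (mem_rootsOfUnity _ _).1 x.2
  · have h1 := Subgroup.card_subgroup_dvd_card (rootsOfUnity d F)
    rwa [Nat.card_units, Nat.card_eq_fintype_card (α := F)] at h1

/-- isomorphic fields -/
theorem good_sl_congr {p r : ℕ} [Fact p.Prime] [Fact r.Prime] {d : ℕ} {F F' : Type} [Field F] [Fintype F] [Field F']
    [Fintype F'] (hc : Fintype.card F = Fintype.card F') (h : Good p r (SpecialLinearGroup (Fin d) F)) :
    Good p r (SpecialLinearGroup (Fin d) F') := by
  classical
  let e : F ≃+* F' := FiniteField.ringEquivOfCardEq hc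
  refine Good.congr (MulEquiv.ofBijective (SpecialLinearGroup.map (n := Fin d) (e : F →+* F')) ⟨?_, ?_⟩) h
  · intro a b hab
    apply Subtype.ext
    ext i j
    have h1 := congrFun (congrFun (congrArg Subtype.val hab) i) j
    exact e.injective h1
  · intro b
    refine ⟨SpecialLinearGroup.map (n := Fin d) (e.symm : F' →+* F) b, ?_⟩
    apply Subtype.ext
    ext i j
    exact e.apply_symm_apply _

variable {I W : Type*} {Y : Type u} [Fintype I] [DecidableEq I] [Group W] [Group Y] [Finite Y] {M : CoxeterMatrix I}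
  {cs : CoxeterSystem M W} {A : I → I → ℤ} {h : IsCartan M A} {T : Subgroup Y} {n : I → Y}
  {X : (I → ℤ) → Subgroup Y} {p r : ℕ} [Fact p.Prime] [Fact r.Prime]

/-- a homomorphism with central kernel and range `H` -/
theorem good_of_range {G : Type*} [Group G] [Finite G] (φ : G →* Y) {H : Subgroup Y} (hH : φ.range = H)
    (hk : ¬ p ∣ Nat.card φ.ker) (hg : Good p r G) : Good p r ↥H := by
  subst hH
  refine Good.quot φ.rangeRestrict φ.rangeRestrict_surjective ?_ hg
  rwa [MonoidHom.ker_rangeRestrict]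

/-- **Coordinates of a chain.** -/
theorem good_MJ_co [Finite W] {m : ℕ} (hm : 0 < m) (k : Fin m ↪ I) (hk : ∀ i j, M (k i) (k j) = cA m i j)
    {F : Type} [Field F] [Fintype F] {φ : SpecialLinearGroup (Fin (m + 1)) F →* Y} (C : Co X k F φ)
    (hp : ¬ p ∣ Nat.gcd (m + 1) (Fintype.card F - 1)) (hg : Good p r (SpecialLinearGroup (Fin (m + 1)) F)) :
    Good p r ↥(H53.HC.MJ cs h X (Set.range k)) := by
  refine good_of_range φ (C.range (cs := cs) (h := h) hk hm) (fun hd => hp ?_) hg
  exact hd.trans ((Subgroup.card_dvd_of_le C.ker).trans (card_center_dvd (Nat.succ_pos m) F))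

/-- **Chains of length at least two.** -/
theorem good_MJ_chain [Finite W] (R : RGD cs h r T n X) {m : ℕ} (hm : 2 ≤ m) (k : Fin m ↪ I)
    (hk : ∀ i j, M (k i) (k j) = cA m i j) (i₀ : Fin m) {F : Type} [Field F] [Fintype F]
    (hq : Nat.card (X (sr (k i₀))) = Fintype.card F) (hp : ¬ p ∣ Nat.gcd (m + 1) (Fintype.card F - 1))
    (hg : Good p r (SpecialLinearGroup (Fin (m + 1)) F)) :
    Good p r ↥(H53.HC.MJ cs h X (Set.range k)) := by
  obtain ⟨F', _, _, φ, C⟩ := exists_co R hm k hk
  have hc : Fintype.card F = Fintype.card F' := by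
    rw [← hq, C.card i₀, Nat.card_eq_fintype_card]
  rw [hc] at hp
  exact good_MJ_co (by omega) k hk C hp (good_sl_congr hc hg)

/-- **A node joined to another node by a simple bond.** -/
theorem good_MJ_node [Finite W] (R : RGD cs h r T n X) {i j : I} (hij : M i j = 3) {F : Type} [Field F]
    [Fintype F] (hq : Nat.card (X (sr i)) = Fintype.card F) (hp : ¬ p ∣ Nat.gcd 2 (Fintype.card F - 1))
    (hg : Good p r (SpecialLinearGroup (Fin 2) F)) : Good p r ↥(H53.HC.MJ cs h X {i}) := by
  obtain ⟨F', _, _, φ, C⟩ := exists_co_one R i j hij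
  have hc : Fintype.card F = Fintype.card F' := by
    rw [← hq, C.card 0, Nat.card_eq_fintype_card]
  rw [hc] at hp
  let k : Fin 1 ↪ I := ⟨fun _ => i, fun a b _ => Subsingleton.elim a b⟩
  have hr : Set.range k = {i} := Set.range_const
  rw [← hr]
  refine good_MJ_co (m := 1) (by omega) k (fun a b => ?_) C hp (good_sl_congr hc hg)
  rw [Subsingleton.elim a b, CoxeterMatrix.diagonal]
  exact ((cA 1).diagonal _).symm

end Cfsg.Agent.H486.EP
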