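import Cfsg.Agent.H486.EP.Chain
import Cfsg.Agent.H934.PQR.TorTwE6

/-!
# `Good` for Levi subgroups of `²E₆(q)` and `³D₄(q)` (S4929, helper486)

* `node_ker`, `good_MJ_Node` : a node of a root group datum coordinatised by `SL₂(F)`;
* `good_MJ_te6` : `²E₆(q)`, `J = {α₃, α₂}` (`SL₃(q²)`) or `{α₃}` (`SL₂(q²)`);
* `good_MJ_td4` : `³D₄(q)`, `J` the short node (`SL₂(q³)`).
-/

set_option autoImplicit false
set_option linter.unusedSectionVars false
set_option maxHeartbeats 400000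

namespace Cfsg.Agent.H486.EP

open Cfsg Cfsg.Lie Cfsg.Agent.H892.EP
open CoxeterSystem Cfsg.Agent.ChevalleyStructure.CoxeterGeom Cfsg.Agent.Tits.Roots Cfsg.Agent.Tits.Core
  Cfsg.Agent.Nodes.Reps Cfsg.Agent.Nodes.BNOf Cfsg.Agent.Nodes.StabComb
open Cfsg.Agent.LieRecognition.BNCox (cA)
open Cfsg.Agent.Nodes.RGDFoldSL Cfsg.Agent.H934.PQR.TorGen
open Cfsg.Agent.ChevalleyStructure.SL2Hom (up lo mem_closure_SL2)
open Matrix

universe u

section

variable {I W : Type*} {Y : Type u} [Fintype I] [DecidableEq I] [Group W] [Group Y] [Finite Y] {M : CoxeterMatrix I}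
  {cs : CoxeterSystem M W} {A : I → I → ℤ} {h : IsCartan M A} {T : Subgroup Y} {n : I → Y}
  {X : (I → ℤ) → Subgroup Y} {p r : ℕ} [Fact p.Prime] [Fact r.Prime]

theorem MJ_one (i : I) : H53.HC.MJ cs h X {i} = X (sr i) ⊔ X (-sr i) := by
  have h1 : ∀ k ∉ ({i} : Set I), (sr i : I → ℤ) k = 0 := fun k hk => sr_ne (fun h1 => hk (by rw [h1]; rfl))
  apply le_antisymm
  · refine RGD.Sup_le fun x hx => ?_
    obtain ⟨hr, h0⟩ := hx
    rcases hr.pos_or_neg with h2 | h2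
    · rw [hr.eq_sr h2 i fun k hk => h0 k hk]
      exact le_sup_left
    · have h3 := hr.neg.eq_sr (neg_nonneg.2 h2) i fun k hk => by rw [Pi.neg_apply, h0 k hk, neg_zero]
      rw [← neg_neg x, h3]
      exact le_sup_right
  · refine sup_le (RGD.le_Sup ⟨isRoot_sr cs h i, h1⟩) (RGD.le_Sup ⟨(isRoot_sr cs h i).neg, fun k hk => ?_⟩)
    rw [Pi.neg_apply, h1 k hk, neg_zero]

variable {F : Type*} [Field F] {i : I} {Φ : SpecialLinearGroup (Fin 2) F →* Y}

theorem node_range (R : RGD cs h r T n X) (N : Node T n X i Φ) : Φ.range = H53.HC.MJ cs h X {i} := by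
  rw [MJ_one]
  refine le_antisymm ?_ (N.LL_le R)
  rintro _ ⟨g, rfl⟩
  have h1 : Subgroup.closure (Set.range (up (F := F)) ∪ Set.range (lo (F := F))) ≤
      (X (sr i) ⊔ X (-sr i)).comap Φ := by
    rw [Subgroup.closure_le]
    rintro _ (⟨a, rfl⟩ | ⟨a, rfl⟩)
    · exact Subgroup.mem_sup_left ((N.mem _).2 ⟨a, rfl⟩)
    · exact Subgroup.mem_sup_right (N.neg R a)
  exact h1 (mem_closure_SL2 g)

theorem node_ker (R : RGD cs h r T n X) (N : Node T n X i Φ) (hinj : Function.Injective fun a : F => Φ (up a))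
    {g : SpecialLinearGroup (Fin 2) F} (hg : Φ g = 1) : g ^ 2 = 1 := by
  have hup0 : Φ (up 0) = 1 := by
    rw [show (up 0 : SpecialLinearGroup (Fin 2) F) = 1 by
      apply Subtype.ext
      ext i j
      fin_cases i <;> fin_cases j <;> rfl, map_one]
  rcases bruhat g with ⟨x, c, hgx⟩ | ⟨x, c, y, hgx⟩
  · have h1 : Φ (up x) ∈ T := by
      have h2 : Φ (up x) = (Φ (tau c))⁻¹ := by
        rw [eq_inv_iff_mul_eq_one, ← map_mul, ← hgx, hg]
      rw [h2]
      exact inv_mem (N.tor c)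
    have h3 : Φ (up x) = 1 := T_inf_X R i h1 ((N.mem _).2 ⟨x, rfl⟩)
    have hx : x = 0 := hinj (h3.trans hup0.symm)
    have h4 : Φ (tau c) = 1 := by
      rw [hgx, map_mul, h3, one_mul] at hg
      exact hg
    have h5 : tau c * up 1 = up ((c : F) * c) * tau c := by
      apply Subtype.ext
      refine (Matrix.SpecialLinearGroup.coe_mul _ _).trans (Eq.trans ?_ (Matrix.SpecialLinearGroup.coe_mul _ _).symm)
      show (!![(c : F), 0; 0, ((c⁻¹ : Fˣ) : F)] : Matrix (Fin 2) (Fin 2) F) * !![1, 1; 0, 1] =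
        (!![1, (c : F) * c; 0, 1] : Matrix (Fin 2) (Fin 2) F) * !![(c : F), 0; 0, ((c⁻¹ : Fˣ) : F)]
      ext i j
      fin_cases i <;> fin_cases j <;> simp [Matrix.mul_apply, Fin.sum_univ_two]
    have h6 : Φ (up 1) = Φ (up ((c : F) * c)) := by
      have := congrArg Φ h5
      rw [map_mul, map_mul, h4, one_mul, mul_one] at this
      exact this
    have h7 : (1 : F) = (c : F) * c := hinj h6
    have h8 : c ^ 2 = 1 := Units.ext (by rw [Units.val_pow_eq_pow_val, sq, ← h7, Units.val_one])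
    have h9 : g = tau c := by
      rw [hgx, hx]
      rw [show (up 0 : SpecialLinearGroup (Fin 2) F) = 1 by
        apply Subtype.ext
        ext i j
        fin_cases i <;> fin_cases j <;> rfl, one_mul]
    rw [h9, ← map_pow, h8, map_one]
  · exfalso
    have hT : ∀ s ∈ T, s ∈ Subgroup.normalizer (X (sr i) : Set Y) := fun s hs =>
      mem_normalizer_iff_cj.2 (R.tor _ (isRoot_sr cs h i) s hs)
    have hXn : ∀ s ∈ X (sr i), s ∈ Subgroup.normalizer (X (sr i) : Set Y) := fun s hs => Subgroup.le_normalizer hs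
    have h2 : n i = (Φ (tau c))⁻¹ * (Φ (up x))⁻¹ * (Φ (up y))⁻¹ := by
      have h1 : Φ (up x) * Φ (tau c) * n i * Φ (up y) = 1 := by
        rw [← hg, hgx, map_mul, map_mul, map_mul, N.ns]
      have h1' : Φ (up x) * Φ (tau c) * n i = (Φ (up y))⁻¹ := eq_inv_of_mul_eq_one_left h1
      rw [← h1']
      group
    have h3 : n i ∈ Subgroup.normalizer (X (sr i) : Set Y) := by
      rw [h2]
      exact mul_mem (mul_mem (inv_mem (hT _ (N.tor c))) (inv_mem (hXn _ ((N.mem _).2 ⟨x, rfl⟩))))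
        (inv_mem (hXn _ ((N.mem _).2 ⟨y, rfl⟩)))
    have h4 : cj (n i) (X (sr i)) = X (sr i) := mem_normalizer_iff_cj.1 h3
    have h5 : cj (n i) (X (sr i)) = X (-sr i) := by
      rw [R.conj i _ (isRoot_sr cs h i), rep_simple_sr]
    apply R.notp i
    rw [← h5, h4, sup_idem]
    exact R.pgrp i

/-- **A node coordinatised by `SL₂(F)`.** -/
theorem good_MJ_Node [Finite F] (R : RGD cs h r T n X) (N : Node T n X i Φ)
    (hinj : Function.Injective fun a : F => Φ (up a)) (hp2 : p ≠ 2) (hg : Good p r (SpecialLinearGroup (Fin 2) F)) :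
    Good p r ↥(H53.HC.MJ cs h X {i}) := by
  refine good_of_range Φ (node_range R N) (fun hd => hp2 ?_) hg
  obtain ⟨x, hx⟩ := exists_prime_orderOf_dvd_card' p hd
  have h1 : x ^ 2 = 1 := Subtype.ext (node_ker R N hinj x.2)
  have h2 := orderOf_dvd_of_pow_eq_one h1
  rw [hx] at h2
  exact (Nat.prime_dvd_prime_iff_eq (Fact.out : p.Prime) Nat.prime_two).1 h2

end

/-! ### `²E₆(q)` -/

section te6

open Cfsg.Agent.Nodes.RGDTwE6 Cfsg.Agent.Nodes.RGDTwNode.E6 Cfsg.Agent.H934.PQR.TorTwE6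

variable {K : Type} [Field K] [Fintype K] {q : ℕ} {φ : K →+* K} (hφ : ∀ x, φ x = x ^ q)
  (hqq : ∀ t : K, (t ^ q) ^ q = t)

include hφ hqq

theorem card_X_te6 (i : Fin 4) (hi : i = 2 ∨ i = 3) :
    Nat.card (Cfsg.Agent.Nodes.RGDTwE6.X φ q (sr i)) = Fintype.card K := by
  have h1 : Nat.card (Cfsg.Agent.Nodes.RGDTwE6.X φ q (sr i)) =
      Nat.card (Set.range fun a : Fx φ ((rest i).length + 1) => Ps hφ hqq i (up a)) := by
    refine Nat.card_congr (Equiv.setCongr (Set.ext fun u => ?_))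
    refine ((node hφ hqq i).mem u).trans ⟨?_, ?_⟩
    · rintro ⟨a, rfl⟩; exact ⟨a, rfl⟩
    · rintro ⟨a, rfl⟩; exact ⟨a, rfl⟩
  have h2 : (rest i).length + 1 = 2 := by
    rcases hi with rfl | rfl <;> rfl
  have h3 : Fx φ ((rest i).length + 1) = ⊤ := by
    rw [h2]
    refine eq_top_iff.2 fun a _ => mem_Fx.2 ?_
    show φ (φ a) = a
    rw [hφ, hφ, hqq]
  have h4 : Function.Injective fun a : Fx φ ((rest i).length + 1) => Ps hφ hqq i (up a) :=
    Phi_up_injective (Cfsg.Agent.Nodes.RGDTwE6.foldGrp hφ hqq) (nodeOK i) (hf i)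
  rw [h1, Nat.card_range_of_injective h4, h3, Nat.card_congr (Subfield.topEquiv (K := K)).toEquiv,
    Nat.card_eq_fintype_card]

theorem good_MJ_te6 {p r : ℕ} [Fact p.Prime] [Fact r.Prime] [CharP K r] (hp : ¬ p ∣ Fintype.card K - 1) {d : ℕ}
    (hd : d = 2 ∨ d = 3) (hg : Good p r (SpecialLinearGroup (Fin d) K)) :
    ∃ J, Good p r ↥(H53.HC.MJ CoxeterMatrix.F₄.toCoxeterSystem Cfsg.Agent.Nodes.RGDTwE6.isCartan
      (Cfsg.Agent.Nodes.RGDTwE6.X φ q) J) := by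
  have : Finite (CoxeterMatrix.F₄).Group :=
    Cfsg.Agent.Nodes.RGDFold.finite_W (hp := Cfsg.Agent.Nodes.RGDTwE6.hp) CoxeterMatrix.F₄.toCoxeterSystem
      Cfsg.Agent.Nodes.RGDTwE6.isCartan Cfsg.Agent.Nodes.RGDTwE6.foldData
  have R := Cfsg.Agent.Nodes.RGDTwE6.rgd CoxeterMatrix.F₄.toCoxeterSystem hφ hqq r
  rcases hd with rfl | rfl
  · refine ⟨{3}, good_MJ_node R (i := 3) (j := 2) (by decide) (card_X_te6 hφ hqq 3 (Or.inr rfl))
      (fun h => hp (h.trans (Nat.gcd_dvd_right _ _))) hg⟩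
  · let k : Fin 2 ↪ Fin 4 := ⟨![2, 3], by decide⟩
    have hk : ∀ i j, CoxeterMatrix.F₄ (k i) (k j) = cA 2 i j := by
      intro i j
      fin_cases i <;> fin_cases j <;> rfl
    refine ⟨Set.range k, good_MJ_chain R le_rfl k hk 0 (card_X_te6 hφ hqq 2 (Or.inl rfl))
      (fun h => hp (h.trans (Nat.gcd_dvd_right _ _))) hg⟩

end te6

/-! ### `³D₄(q)` -/

section td4

open Cfsg.Agent.Nodes.RGDTwD4 Cfsg.Agent.Nodes.RGDTwNode.D4

variable {K : Type} [Field K] [Fintype K] {q : ℕ} {φ : K →+* K}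

theorem hfD (i : Fin 2) : ∀ s ∈ Cfsg.Agent.Nodes.RGDTwNode.D4.rep i :: Cfsg.Agent.Nodes.RGDTwNode.D4.rest i, ∀ t : K,
    ((eps s : ℤ) : K) * φ t = φ t := by
  intro s hs t
  rw [Cfsg.Agent.Nodes.RGDTwNode.D4.eps_one i s hs, Int.cast_one, one_mul]

variable (hK : Fintype.card K = q ^ 3) (hφ : ∀ x, φ x = x ^ q)

/-- the homomorphism of the node `i` -/
noncomputable def PsD (i : Fin 2) :
    SpecialLinearGroup (Fin 2) (Fx φ ((Cfsg.Agent.Nodes.RGDTwNode.D4.rest i).length + 1)) →* ↥(twistedD4 K q) :=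
  Phi (Cfsg.Agent.Nodes.RGDTwD4.foldGrp hφ (Cfsg.Agent.ChevalleyStructure.D4Fixed.twisted_le_fix hK hφ))
    (Cfsg.Agent.Nodes.RGDTwNode.D4.nodeOK i) (hfD i)

theorem nodeD (i : Fin 2) : Node (Cfsg.Agent.Nodes.RGDTwD4.T K q) (Cfsg.Agent.Nodes.RGDTwD4.n hφ)
    (Cfsg.Agent.Nodes.RGDTwD4.X φ q) i (PsD hK hφ i) where
  mem u := mem_X_iff _ (Cfsg.Agent.Nodes.RGDTwNode.D4.nodeOK i) (hfD i) u
  ns := Phi_wS _ (Cfsg.Agent.Nodes.RGDTwNode.D4.nodeOK i) (hfD i)
  tor c := by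
    rw [tau_eq]
    exact Phi_hS _ (Cfsg.Agent.Nodes.RGDTwNode.D4.nodeOK i) (hfD i) c.ne_zero

include hK hφ in
theorem good_MJ_td4 {p r : ℕ} [Fact p.Prime] [Fact r.Prime] [CharP K r] (hp2 : p ≠ 2)
    (hg : Good p r (SpecialLinearGroup (Fin 2) K)) :
    Good p r ↥(H53.HC.MJ CoxeterMatrix.G₂.toCoxeterSystem Cfsg.Agent.Nodes.RGDTwD4.isCartan
      (Cfsg.Agent.Nodes.RGDTwD4.X φ q) {1}) := by
  classical
  have R := Cfsg.Agent.Nodes.RGDTwD4.rgd CoxeterMatrix.G₂.toCoxeterSystem hK hφ r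
  have h2 : Fx φ ((Cfsg.Agent.Nodes.RGDTwNode.D4.rest 1).length + 1) = ⊤ := by
    refine eq_top_iff.2 fun a _ => mem_Fx.2 ?_
    show φ (φ (φ a)) = a
    rw [hφ, hφ, hφ, ← pow_mul, ← pow_mul, show q * (q * q) = q ^ 3 by ring, ← hK, FiniteField.pow_card]
  have hc : Nat.card K = Nat.card (Fx φ ((Cfsg.Agent.Nodes.RGDTwNode.D4.rest 1).length + 1)) := by
    rw [h2, Nat.card_congr (Subfield.topEquiv (K := K)).toEquiv]
  have : Fintype (Fx φ ((Cfsg.Agent.Nodes.RGDTwNode.D4.rest 1).length + 1)) := Fintype.ofFinite _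
  rw [Nat.card_eq_fintype_card, Nat.card_eq_fintype_card] at hc
  exact good_MJ_Node R (nodeD hK hφ 1) (Phi_up_injective _ (Cfsg.Agent.Nodes.RGDTwNode.D4.nodeOK 1) (hfD 1)) hp2
    (good_sl_congr hc hg)

end td4

end Cfsg.Agent.H486.EP
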